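import Cfsg.Agent.Lib.H04.Chev.Comm3
import Cfsg.Agent.Lib.H04.Chev.Para
import Cfsg.Agent.Lib.H04.Chev.Struct1
import Cfsg.Prelude.Def_ChevAutomorphisms

/-!
# Characters of the root lattice: `charDiag` is a torus element
-/

set_option autoImplicit false
set_option linter.style.haveILetI false
set_option linter.unusedSimpArgs false
set_option linter.unusedSectionVars false
set_option linter.unusedVariables false

open Cfsg.Lie

namespace Cfsg.Agent.H04.Chev

variable (D : ChevalleyDatum) (T : Tabs)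

/-- a positive root is fundamental or the sum of a fundamental root and a positive root -/
noncomputable def addRow (r : ℕ) : Bool :=
  anyRange D.rank fun i =>
    Bool.rec
      (Option.rec false (fun e =>
          bnd (Nat.ble (Nat.div D.nroots 2) e.1)
            (Option.rec false (fun e2 => Nat.beq e2.1 r) ((fastCe T.P D.nroots (D.simple i) e.1)[0]?)))
        ((fastCe T.P D.nroots (negF D (D.simple i)) r)[0]?))
      true (Nat.beq r (D.simple i))

variable {D T} {U : Tabs3}

section
variable (C : Checks D T) (C3 : Checks3 D T U)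

lemma opt_rec_spec {α : Type*} {o : Option α} {f : α → Bool}
    (h : Option.rec (motive := fun _ => Bool) false f o = true) : ∃ e, o = some e ∧ f e = true := by
  cases o with
  | none => simp at h
  | some e => exact ⟨e, rfl, h⟩

include C in
lemma addRow_spec {r : ℕ} (h : addRow D T r = true) :
    (∃ i, i < D.rank ∧ r = D.simple i) ∨
      ∃ i s, i < D.rank ∧ D.nroots / 2 ≤ s ∧ D.chainRoot (D.simple i) s 1 = some r := by
  unfold addRow at h
  obtain ⟨i, hi, h⟩ := anyRange_spec h
  rcases h1 : Nat.beq r (D.simple i) with _ | _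
  · rw [h1] at h
    obtain ⟨e, he, h2⟩ := opt_rec_spec h
    rw [bnd_eq_true] at h2
    obtain ⟨e2, he2, h3⟩ := opt_rec_spec h2.2
    refine Or.inr ⟨i, e.1, hi, Nat.le_of_ble_eq_true h2.1, ?_⟩
    rw [C.ce] at he2
    simp only [ChevalleyDatum.chainRoot, Nat.sub_self, he2, Option.map_some]
    have := Nat.eq_of_beq_eq_true h3
    rw [this]
  · exact Or.inl ⟨i, hi, Nat.eq_of_beq_eq_true h1⟩

variable {F : Type*} [Field F]

include C C3 in
/-- The values of a character of the root lattice -/
theorem tv_eq_of_rootChar {χ : ℕ → Fˣ} (hχ : D.IsRootCharacter χ)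
    (hadd : ∀ r, D.nroots / 2 ≤ r → r < D.nroots → addRow D T r = true) :
    ∀ r, r < D.nroots → χ r = tv U D (fun i => χ (D.simple i)) r := by
  set ψ : ℕ → Fˣ := fun i => χ (D.simple i) with hψ
  have hpos : ∀ n : ℕ, ∀ r, D.nroots / 2 ≤ r → r < D.nroots →
      (∑ j ∈ Finset.range D.rank, U.cofI r j) = (n : ℤ) → χ r = tv U D ψ r := by
    intro n
    induction n with
    | zero =>
      intro r h0 hr hs
      rcases addRow_spec C (hadd r h0 hr) with ⟨i, hi, rfl⟩ | ⟨i, s, hi, hs0, he⟩
      · rw [tv_simple C3 hi]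
      · exfalso
        obtain ⟨hp, hss, -, -, y, hy, hy1, hy2⟩ := chainRoot_spec C C3 le_rfl he
        have h1 : ∀ j ∈ Finset.range D.rank, U.cofI r j = U.cofI s j + (if j = i then 1 else 0) := by
          intro j hj
          have := chainRoot_cof C C3 le_rfl he j (Finset.mem_range.1 hj)
          rw [this, C3.cof_simple i hi j (Finset.mem_range.1 hj)]
          push_cast
          ring
        rw [Finset.sum_congr rfl h1, Finset.sum_add_distrib, Finset.sum_ite_eq'] at hs
        have h2 : 0 ≤ ∑ j ∈ Finset.range D.rank, U.cofI s j :=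
          Finset.sum_nonneg fun j hj => C3.cof_pos s hs0 hss j (Finset.mem_range.1 hj)
        simp only [Finset.mem_range, hi, if_true] at hs
        push_cast at hs
        omega
    | succ n ih =>
      intro r h0 hr hs
      rcases addRow_spec C (hadd r h0 hr) with ⟨i, hi, rfl⟩ | ⟨i, s, hi, hs0, he⟩
      · rw [tv_simple C3 hi]
      · obtain ⟨hp, hss, -, -, y, hy, hy1, hy2⟩ := chainRoot_spec C C3 le_rfl he
        have h1 : ∀ j ∈ Finset.range D.rank, U.cofI r j = U.cofI s j + (if j = i then 1 else 0) := by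
          intro j hj
          have := chainRoot_cof C C3 le_rfl he j (Finset.mem_range.1 hj)
          rw [this, C3.cof_simple i hi j (Finset.mem_range.1 hj)]
          push_cast
          ring
        rw [Finset.sum_congr rfl h1, Finset.sum_add_distrib, Finset.sum_ite_eq'] at hs
        simp only [Finset.mem_range, hi, if_true] at hs
        have h2 := ih s hs0 hss (by push_cast at hs; omega)
        have h3 := hχ.2 _ _ _ hp hss he
        have h4 := tv_col C3 hp (by omega : s < D.nroots + D.rank) hy ψ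
        rw [hy1, hy2, pow_one] at h4
        rw [h3, h4, h2, tv_simple C3 hi, mul_comm]
  have hpos' : ∀ r, D.nroots / 2 ≤ r → r < D.nroots → χ r = tv U D ψ r := by
    intro r h0 hr
    have h2 : 0 ≤ ∑ j ∈ Finset.range D.rank, U.cofI r j :=
      Finset.sum_nonneg fun j hj => C3.cof_pos r h0 hr j (Finset.mem_range.1 hj)
    obtain ⟨n, hn⟩ := Int.eq_ofNat_of_zero_le h2
    exact hpos n r h0 hr hn
  intro r hr
  by_cases h0 : D.nroots / 2 ≤ r
  · exact hpos' r h0 hr
  · have hn : D.nroots / 2 ≤ negF D r := by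
      simp only [negF]
      change D.nroots / 2 ≤ D.nroots - 1 - r
      omega
    have hn2 : negF D r < D.nroots := by
      simp only [negF]
      change D.nroots - 1 - r < D.nroots
      omega
    have h1 := hχ.1 r hr
    have h2 : D.neg r = negF D r := C.neg r hr
    rw [h2, hpos' _ hn hn2, tv_neg C3 hr] at h1
    exact (inv_injective h1).symm

include C C3 in
lemma charDiag_eq {χ : ℕ → Fˣ} (hχ : D.IsRootCharacter χ)
    (hadd : ∀ r, D.nroots / 2 ≤ r → r < D.nroots → addRow D T r = true) :
    D.charDiag F χ = torusM U D (fun i => χ (D.simple i)) := by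
  unfold ChevalleyDatum.charDiag torusM
  congr 1
  funext i
  rcases i with i | s
  · simp only [Sum.elim_inl]
    rw [show code D (Sum.inl i) = D.nroots + i.val from rfl, tv_coroot C3 i.2]
    rfl
  · simp only [Sum.elim_inr]
    rw [show code D (Sum.inr s) = s.val from rfl, ← tv_eq_of_rootChar C C3 hχ hadd _ s.2]

include C C3 in
/-- **S2157** -/
theorem charDiag_conj {χ : ℕ → Fˣ} (hχ : D.IsRootCharacter χ)
    (hadd : ∀ r, D.nroots / 2 ≤ r → r < D.nroots → addRow D T r = true) {r : ℕ}
    (hr : r < D.nroots) (t : F) :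
    D.charDiag F χ * D.x F r t * D.charDiag F (fun s => (χ s)⁻¹) = D.x F r ((χ r : F) * t) := by
  have h1 : D.charDiag F χ * D.charDiag F (fun s => (χ s)⁻¹) = 1 := by
    unfold ChevalleyDatum.charDiag
    rw [Matrix.diagonal_mul_diagonal, ← Matrix.diagonal_one]
    congr 1
    funext i
    rcases i with i | s <;> simp
  rw [charDiag_eq C C3 hχ hadd, torusM_conj C C3 hr, ← tv_eq_of_rootChar C C3 hχ hadd r hr,
    mul_assoc, ← charDiag_eq C C3 hχ hadd, h1, mul_one]

variable (C2 : Checks2 D T)

lemma eq_zero_of_pow_eq_zero_aux {x : F} {N : ℕ} (h : x ^ N = 0) : x = 0 := eq_zero_of_pow_eq_zero h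

omit C C3 in
lemma diag_unip {ι : Type*} [Fintype ι] [DecidableEq ι] {v : ι → F} {N : ℕ}
    (h : (Matrix.diagonal v - 1) ^ N = 0) : Matrix.diagonal v = 1 := by
  have e : Matrix.diagonal v - 1 = Matrix.diagonal (fun i => v i - 1) := by
    ext i j
    by_cases hij : i = j
    · subst hij
      simp
    · simp [Matrix.diagonal_apply_ne, hij, Matrix.one_apply_ne]
  rw [e, Matrix.diagonal_pow] at h
  rw [← Matrix.diagonal_one]
  congr 1
  funext i
  have h1 := congrFun (congrFun h i) i
  simp only [Matrix.diagonal_apply_eq, Pi.pow_apply, Matrix.zero_apply] at h1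
  exact sub_eq_zero.1 (eq_zero_of_pow_eq_zero_aux h1)

include C C3 in
/-- Conjugation by a torus element preserves the subgroups generated by root elements. -/
lemma torus_conj_closure {A : ℕ → Prop} (hA : ∀ r, A r → r < D.nroots) (ψ : ℕ → Fˣ) {u : GL D.Idx F}
    (hu : u ∈ Subgroup.closure {g : GL D.Idx F | ∃ (r : ℕ) (t : F), A r ∧ (g : Matrix D.Idx D.Idx F) = D.x F r t}) :
    torusG U D ψ * u * (torusG U D ψ)⁻¹ ∈
      Subgroup.closure {g : GL D.Idx F | ∃ (r : ℕ) (t : F), A r ∧ (g : Matrix D.Idx D.Idx F) = D.x F r t} := by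
  induction hu using Subgroup.closure_induction with
  | mem x hx =>
    obtain ⟨r, t, hr, hx⟩ := hx
    refine Subgroup.subset_closure ⟨r, ((tv U D ψ r : Fˣ) : F) * t, hr, ?_⟩
    have h1 : x = xG C r t := Units.ext (by rw [hx, xG_val])
    rw [h1, torusG_conj C C3 (hA r hr), xG_val]
  | one => simp
  | mul x y _ _ hx hy =>
    have : torusG U D ψ * (x * y) * (torusG U D ψ)⁻¹
        = (torusG U D ψ * x * (torusG U D ψ)⁻¹) * (torusG U D ψ * y * (torusG U D ψ)⁻¹) := by group
    rw [this]
    exact Subgroup.mul_mem _ hx hy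
  | inv x _ hx =>
    have : torusG U D ψ * x⁻¹ * (torusG U D ψ)⁻¹ = (torusG U D ψ * x * (torusG U D ψ)⁻¹)⁻¹ := by group
    rw [this]
    exact Subgroup.inv_mem _ hx

include C C2 C3 in
/-- A torus element of the Chevalley group lies in the diagonal subgroup. -/
theorem torusG_mem_diagonal (ψ : ℕ → Fˣ) (hg : torusG U D ψ ∈ D.group F) :
    torusG U D ψ ∈ D.diagonalSubgroup F := by
  have hnorm : torusG U D ψ ∈ Subgroup.normalizer (D.unipotentRadical F ∅ : Set (GL D.Idx F)) := by
    have hA : ∀ r, (D.IsPosRoot r ∧ ¬ D.InRootSub ∅ r) → r < D.nroots := fun r hr => hr.1.1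
    have hR : D.unipotentRadical F ∅ = Subgroup.closure {g : GL D.Idx F | ∃ (r : ℕ) (t : F),
        (D.IsPosRoot r ∧ ¬ D.InRootSub ∅ r) ∧ (g : Matrix D.Idx D.Idx F) = D.x F r t} := by
      unfold ChevalleyDatum.unipotentRadical
      congr 1
      ext g
      simp only [Set.mem_ofPred_eq, and_assoc]
    rw [Subgroup.mem_normalizer_iff, hR]
    intro u
    constructor
    · intro hu
      exact torus_conj_closure C C3 hA ψ hu
    · intro hu
      have h1 := torus_conj_closure C C3 hA ψ⁻¹ hu
      have h2 : torusG U D ψ⁻¹ * (torusG U D ψ * u * (torusG U D ψ)⁻¹) * (torusG U D ψ⁻¹)⁻¹ = u := by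
        rw [torusG_inv]
        group
      rwa [h2] at h1
  have hJ : ∀ j ∈ (∅ : Set ℕ), j < D.rank := fun j hj => absurd hj (Set.notMem_empty j)
  have h1 : torusG U D ψ ∈ D.parabolicSubgroup F ∅ := by
    rw [← normalizer_radical C C2 C3 hJ]
    exact ⟨hnorm, hg⟩
  have h2 : D.parabolicSubgroup F ∅ = D.borelSubgroup F := by
    unfold ChevalleyDatum.parabolicSubgroup
    have : Subgroup.closure {g : GL D.Idx F | ∃ j ∈ (∅ : Set ℕ), j < D.rank ∧ (g : Matrix D.Idx D.Idx F) = D.nMat F (D.simple j) 1} = ⊥ := by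
      rw [Subgroup.closure_eq_bot_iff]
      rintro g ⟨j, hj, -⟩
      exact absurd hj (Set.notMem_empty j)
    rw [this, sup_bot_eq]
  rw [h2, mem_borel_iff C C2 C3] at h1
  obtain ⟨u, hu, h, hh, he⟩ := h1
  rw [diagonal_eq C C3] at hh
  obtain ⟨c, hc⟩ := mem_HT.1 hh
  have h3 : u = torusG U D (ψ * (capply D c)⁻¹) := by
    have h4 : u = torusG U D ψ * h⁻¹ := by rw [he]; group
    rw [h4, hc, hProd, torusG_mul, torusG_inv]
  have h5 := unipotent_pow C C2 hu
  rw [h3] at h5
  have h6 : ((torusG U D (ψ * (capply D c)⁻¹) : GL D.Idx F) : Matrix D.Idx D.Idx F) = 1 := by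
    have h7 : ((torusG U D (ψ * (capply D c)⁻¹) : GL D.Idx F) : Matrix D.Idx D.Idx F)
        = Matrix.diagonal fun i => ((tv U D (ψ * (capply D c)⁻¹) (code D i) : Fˣ) : F) := rfl
    rw [h7] at h5 ⊢
    exact diag_unip h5
  have h9 : u = 1 := by
    rw [h3]
    exact Units.ext h6
  rw [he, h9, one_mul]
  rw [diagonal_eq C C3]
  exact hh

include C C2 C3 in
/-- **S2158** -/
theorem charDiag_mem_diagonal {χ : ℕ → Fˣ} (hχ : D.IsRootCharacter χ)
    (hadd : ∀ r, D.nroots / 2 ≤ r → r < D.nroots → addRow D T r = true)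
    {g : GL D.Idx F} (hg : g ∈ D.group F) (hgχ : (g : Matrix D.Idx D.Idx F) = D.charDiag F χ) :
    g ∈ D.diagonalSubgroup F := by
  have h1 : g = torusG U D (fun i => χ (D.simple i)) :=
    Units.ext (by rw [hgχ, charDiag_eq C C3 hχ hadd, torusG_val])
  rw [h1] at hg ⊢
  exact torusG_mem_diagonal C C3 C2 _ hg

end

end Cfsg.Agent.H04.Chev
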