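import Cfsg.Agent.Lib.H04.Chev.Exists
import Cfsg.Agent.Lib.H04.Chev.Perf
import Cfsg.Agent.Lib.H04.Chev.Tab.G2_perf
import Cfsg.Agent.Lib.H04.Chev.Tab.B2_perf
import Cfsg.Agent.Lib.H04.Chev.Tab.D4_perf
import Cfsg.Agent.Lib.H04.Chev.Tab.F4_perf
import Cfsg.Agent.Lib.H04.Chev.Tab.E6_perf
import Cfsg.Agent.Lib.H04.Chev.Tab.E7_perf
import Cfsg.Agent.Lib.H04.Chev.Tab.E8_perf

/-!
# The tables for all the types, with the witnesses for perfectness
-/

set_option autoImplicit false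

open Cfsg.Lie

namespace Cfsg.Agent.H04.Chev

/-- The tables for each of the seven tabulated types. -/
theorem exists_tabs4 {D : ChevalleyDatum}
    (hD : D ∈ [chevG2, chevB2, chevD4, chevF4, chevE6, chevE7, chevE8]) :
    ∃ (T : Tabs) (U : Tabs3), Checks D T ∧ Checks2 D T ∧ Checks3 D T U ∧ Checks4 D T := by
  simp only [List.mem_cons, List.not_mem_nil, or_false] at hD
  rcases hD with rfl | rfl | rfl | rfl | rfl | rfl | rfl
  · exact ⟨_, _, TG2.checks, TG2.checks2, TG2.checks3, TG2.checks4⟩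
  · exact ⟨_, _, TB2.checks, TB2.checks2, TB2.checks3, TB2.checks4⟩
  · exact ⟨_, _, TD4.checks, TD4.checks2, TD4.checks3, TD4.checks4⟩
  · exact ⟨_, _, TF4.checks, TF4.checks2, TF4.checks3, TF4.checks4⟩
  · exact ⟨_, _, TE6.checks, TE6.checks2, TE6.checks3, TE6.checks4⟩
  · exact ⟨_, _, TE7.checks, TE7.checks2, TE7.checks3, TE7.checks4⟩
  · exact ⟨_, _, TE8.checks, TE8.checks2, TE8.checks3, TE8.checks4⟩

end Cfsg.Agent.H04.Chev
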