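import Cfsg.Agent.Lib.H04.Chev.Struct1
import Cfsg.Agent.Lib.H04.Chev.BNPair
import Cfsg.Agent.Lib.H04.Chev.Mono
import Cfsg.Prelude.Def_ChevAutomorphisms

/-!
# The group generated by `N` and one root subgroup
-/

set_option autoImplicit false
set_option linter.style.haveILetI false
set_option linter.unusedSimpArgs false
set_option linter.unusedSectionVars false
set_option linter.unusedVariables false

open Cfsg.Lie

namespace Cfsg.Agent.H04.Chev

variable {D : ChevalleyDatum} {T : Tabs} {U : Tabs3}

section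
variable (C : Checks D T) (C3 : Checks3 D T U)
variable {F : Type*} [Field F]

/-- all root elements of the root `r` are in `M` -/
def PinM (M : Subgroup (GL D.Idx F)) (r : ℕ) : Prop := ∀ t : F, xG C r t ∈ M

variable {M : Subgroup (GL D.Idx F)} (hN : D.monomialSubgroup F ≤ M)

include hN in
lemma PinM_w {r j : ℕ} (hj : j < D.rank) (hr : r < D.nroots) (h : PinM C M r) : PinM C M (T.w (D.simple j) r) := by
  intro t
  have e : xG C (T.w (D.simple j) r) t
      = nG C (D.simple j) 1 * xG C r (sv F (T.eta (D.simple j) r) 1 * t) * (nG C (D.simple j) 1)⁻¹ := by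
    rw [nG_inv]
    apply Units.ext
    simp only [Units.val_mul, xG_val, nG_val]
    exact x_w_eq C hj hr t
  rw [e]
  have h1 := hN (nG_mem_monomial C (C.simple_lt j hj) (F := F))
  exact M.mul_mem (M.mul_mem h1 (h _)) (M.inv_mem h1)

include hN in
lemma rep_reach (cls : ℕ → Bool) (hcls : ∀ j, j < D.rank → ∀ r, r < D.nroots → cls (T.w (D.simple j) r) = cls r) :
    ∀ r, r < D.nroots → PinM C M r → ∃ q ∈ T.reps, PinM C M q ∧ cls q = cls r := by
  have key : ∀ k r, parK T r = k → r < D.nroots → PinM C M r → ∃ q ∈ T.reps, PinM C M q ∧ cls q = cls r := by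
    intro k
    induction k using Nat.strong_induction_on with
    | _ k ih =>
      intro r hk hr hP
      by_cases hrep : r ∈ T.reps
      · exact ⟨r, hrep, hP, rfl⟩
      · obtain ⟨h1, h2, h3, h4⟩ := C.par r hr hrep
        have h5 := C.w_w _ h1 _ h2
        rw [h4] at h5
        have h6 : PinM C M (parR T r) := by
          rw [← h5]
          exact PinM_w C hN h1 hr hP
        obtain ⟨q, hq, hPq, hcq⟩ := ih _ (hk ▸ h3) _ rfl h2 h6
        refine ⟨q, hq, hPq, hcq.trans ?_⟩
        rw [← h5]
        exact hcls _ h1 _ hr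
  intro r hr hP
  exact key _ r rfl hr hP

include hN in
lemma all_of_class (cls : ℕ → Bool) (hcls : ∀ j, j < D.rank → ∀ r, r < D.nroots → cls (T.w (D.simple j) r) = cls r)
    (c : Bool) (hrep : ∀ q ∈ T.reps, cls q = c → PinM C M q) :
    ∀ r, r < D.nroots → cls r = c → PinM C M r := by
  apply root_induction C
  · exact hrep
  · intro i r hi hr ih h
    rw [hcls i hi r hr] at h
    exact PinM_w C hN hi hr (ih h)

include C in
lemma group_le_of_all (h : ∀ r, r < D.nroots → PinM C M r) : D.group F ≤ M := by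
  rw [group_eq C, Subgroup.closure_le]
  rintro _ ⟨r, t, hr, rfl⟩
  exact h r hr t

include C in
lemma PinM_of_comm {r a b : ℕ} {z : ℤ} (ha : a < D.nroots) (hb : b < D.nroots) (h1 : b ≠ a) (h2 : b ≠ negF D a)
    (h3 : D.commTerms a b = [(r, z, 1, 1)]) (hz : (z : F) ≠ 0) (hPa : PinM C M a) (hPb : PinM C M b) :
    PinM C M r := by
  intro t
  have h4 := xG_comm C ha hb h1 h2 (1 : F) (-(z : F)⁻¹ * t)
  have h5 : D.commWord F a b (1 : F) (-(z : F)⁻¹ * t) = [(r, t)] := by
    unfold Cfsg.Lie.ChevalleyDatum.commWord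
    rw [h3]
    simp only [List.map_cons, List.map_nil, pow_one]
    have : (z : F) * -1 * (-(z : F)⁻¹ * t) = t := by
      field_simp
    rw [this]
  rw [h5, wordG_cons, wordG_nil, mul_one] at h4
  have e : xG C r t = (xG C a (1 : F) * xG C b (-(z : F)⁻¹ * t))⁻¹ *
      (xG C b (-(z : F)⁻¹ * t) * xG C a (1 : F)) := by
    rw [h4]
    group
  rw [e]
  exact M.mul_mem (M.inv_mem (M.mul_mem (hPa _) (hPb _))) (M.mul_mem (hPb _) (hPa _))

lemma PinM_simple {i : ℕ} : PinM C (D.monomialSubgroup F ⊔ D.rootSubgroup F (D.simple i)) (D.simple i) := by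
  intro t
  exact Subgroup.mem_sup_right (Subgroup.subset_closure ⟨t, rfl⟩)

include C in
/-- One root length. -/
theorem group_le_NX_one {i : ℕ} (hi : i < D.rank) {r0 : ℕ} (hreps : T.reps = [r0]) :
    D.group F ≤ D.monomialSubgroup F ⊔ D.rootSubgroup F (D.simple i) := by
  have hN : D.monomialSubgroup F ≤ D.monomialSubgroup F ⊔ D.rootSubgroup F (D.simple i) := le_sup_left
  obtain ⟨q, hq, hPq, -⟩ := rep_reach C hN (fun _ => false) (fun _ _ _ _ => rfl) _ (C.simple_lt i hi) (PinM_simple C)
  rw [hreps, List.mem_singleton] at hq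
  subst hq
  refine group_le_of_all C fun r hr => all_of_class C hN (fun _ => false) (fun _ _ _ _ => rfl) false ?_ r hr rfl
  intro q' hq' _
  rw [hreps, List.mem_singleton] at hq'
  rw [hq']
  exact hPq

include C in
/-- Two root lengths. -/
theorem group_le_NX_two {i : ℕ} (hi : i < D.rank) (hshort : D.isLong (D.simple i) = false) {rs rl : ℕ}
    (hreps : T.reps = [rs, rl]) (hrl : D.isLong rl = true)
    (hcls : ∀ j, j < D.rank → ∀ r, r < D.nroots → D.isLong (T.w (D.simple j) r) = D.isLong r)
    {a b : ℕ} {z : ℤ} (ha : a < D.nroots) (hb : b < D.nroots) (h1 : b ≠ a) (h2 : b ≠ negF D a)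
    (hla : D.isLong a = false) (hlb : D.isLong b = false)
    (h3 : D.commTerms a b = [(rl, z, 1, 1)]) (hz : (z : F) ≠ 0) :
    D.group F ≤ D.monomialSubgroup F ⊔ D.rootSubgroup F (D.simple i) := by
  have hN : D.monomialSubgroup F ≤ D.monomialSubgroup F ⊔ D.rootSubgroup F (D.simple i) := le_sup_left
  obtain ⟨q, hq, hPq, hcq⟩ := rep_reach C hN D.isLong hcls _ (C.simple_lt i hi) (PinM_simple C)
  rw [hshort] at hcq
  have hq2 : q = rs := by
    rw [hreps] at hq
    simp only [List.mem_cons, List.not_mem_nil, or_false] at hq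
    rcases hq with rfl | rfl
    · rfl
    · rw [hrl] at hcq
      exact absurd hcq (by simp)
  subst hq2
  have hshortAll := all_of_class C hN D.isLong hcls false (by
    intro q' hq' hcq'
    rw [hreps] at hq'
    simp only [List.mem_cons, List.not_mem_nil, or_false] at hq'
    rcases hq' with rfl | rfl
    · exact hPq
    · rw [hrl] at hcq'
      exact absurd hcq' (by simp))
  have hPl := PinM_of_comm C ha hb h1 h2 h3 hz (hshortAll a ha hla) (hshortAll b hb hlb)
  refine group_le_of_all C ?_
  apply root_induction C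
  · intro q' hq'
    rw [hreps] at hq'
    simp only [List.mem_cons, List.not_mem_nil, or_false] at hq'
    rcases hq' with rfl | rfl
    · exact hPq
    · exact hPl
  · intro j r hj hr ih
    exact PinM_w C hN hj hr ih

end

end Cfsg.Agent.H04.Chev
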