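import Cfsg.Agent.Lib.H04.Chev.Exists
import Cfsg.Agent.Lib.H04.Chev.NX

/-! The seven types for the group generated by `N` and one root subgroup. -/

set_option autoImplicit false
set_option maxRecDepth 100000

open Cfsg.Lie

namespace Cfsg.Agent.H04.Chev

theorem isLongW_G2 : allRange chevG2.rank (fun j => allRange chevG2.nroots fun r =>
    decide (chevG2.isLong (TG2.T.w (chevG2.simple j) r) = chevG2.isLong r)) = true := by decide +kernel
theorem isLongW_B2 : allRange chevB2.rank (fun j => allRange chevB2.nroots fun r =>
    decide (chevB2.isLong (TB2.T.w (chevB2.simple j) r) = chevB2.isLong r)) = true := by decide +kernel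
theorem isLongW_F4 : allRange chevF4.rank (fun j => allRange chevF4.nroots fun r =>
    decide (chevF4.isLong (TF4.T.w (chevF4.simple j) r) = chevF4.isLong r)) = true := by decide +kernel

lemma of_isLongW {D : ChevalleyDatum} {T : Tabs}
    (h : allRange D.rank (fun j => allRange D.nroots fun r =>
      decide (D.isLong (T.w (D.simple j) r) = D.isLong r)) = true) :
    ∀ j, j < D.rank → ∀ r, r < D.nroots → D.isLong (T.w (D.simple j) r) = D.isLong r := by
  intro j hj r hr
  exact of_decide_eq_true (allRange_spec (allRange_spec h j hj) r hr)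

lemma two_ne {K : Type*} [Field K] (h2 : ringChar K ≠ 2) : (((2 : ℤ) : K)) ≠ 0 := by
  intro h
  apply h2
  apply CharP.ringChar_of_prime_eq_zero Nat.prime_two
  exact_mod_cast h

lemma three_ne {K : Type*} [Field K] (h3 : ringChar K ≠ 3) : (((3 : ℤ) : K)) ≠ 0 := by
  intro h
  apply h3
  apply CharP.ringChar_of_prime_eq_zero Nat.prime_three
  exact_mod_cast h

/-- **S2416** -/
theorem group_le_NX {K : Type*} [Field K] (D : ChevalleyDatum)
    (hD : D ∈ [chevG2, chevB2, chevD4, chevF4, chevE6, chevE7, chevE8])
    (h2 : D ∈ [chevB2, chevF4] → ringChar K ≠ 2) (h3 : D = chevG2 → ringChar K ≠ 3)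
    (i : ℕ) (hi : i < D.rank) (hshort : D.isLong (D.simple i) = false) :
    D.group K ≤ D.monomialSubgroup K ⊔ D.rootSubgroup K (D.simple i) := by
  simp only [List.mem_cons, List.not_mem_nil, or_false] at hD
  rcases hD with rfl | rfl | rfl | rfl | rfl | rfl | rfl
  · refine group_le_NX_two TG2.checks hi hshort (rs := 7) (rl := 6) TG2.T_reps (by decide +kernel)
      (of_isLongW isLongW_G2) (a := 4) (b := 8) (z := -3) (by decide +kernel) (by decide +kernel)
      (by decide +kernel) (by decide +kernel) (by decide +kernel) (by decide +kernel) (by decide +kernel) ?_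
    have := three_ne (h3 rfl)
    intro h
    apply this
    have h5 : (((3 : ℤ) : K)) = -(((-3 : ℤ) : K)) := by push_cast; ring
    rw [h5, h, neg_zero]
  · refine group_le_NX_two TB2.checks hi hshort (rs := 5) (rl := 4) TB2.T_reps (by decide +kernel)
      (of_isLongW isLongW_B2) (a := 2) (b := 6) (z := -2) (by decide +kernel) (by decide +kernel)
      (by decide +kernel) (by decide +kernel) (by decide +kernel) (by decide +kernel) (by decide +kernel) ?_
    have := two_ne (h2 (by simp))
    intro h
    apply this
    have h5 : (((2 : ℤ) : K)) = -(((-2 : ℤ) : K)) := by push_cast; ring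
    rw [h5, h, neg_zero]
  · exact group_le_NX_one TD4.checks hi TD4.T_reps
  · refine group_le_NX_two TF4.checks hi hshort (rs := 33) (rl := 25) TF4.T_reps (by decide +kernel)
      (of_isLongW isLongW_F4) (a := 9) (b := 39) (z := -2) (by decide +kernel) (by decide +kernel)
      (by decide +kernel) (by decide +kernel) (by decide +kernel) (by decide +kernel) (by decide +kernel) ?_
    have := two_ne (h2 (by simp))
    intro h
    apply this
    have h5 : (((2 : ℤ) : K)) = -(((-2 : ℤ) : K)) := by push_cast; ring
    rw [h5, h, neg_zero]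
  · exact group_le_NX_one TE6.checks hi TE6.T_reps
  · exact group_le_NX_one TE7.checks hi TE7.T_reps
  · exact group_le_NX_one TE8.checks hi TE8.T_reps

end Cfsg.Agent.H04.Chev
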